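import Cfsg.Agent.S4304

/-!
# Sylow numbers below `p ^ 2`

If a finite group has fewer than `p ^ 2` Sylow `p`-subgroups, any two distinct Sylow
`p`-subgroups meet in a subgroup of index `p` that lies in every Sylow `p`-subgroup.
Also: a generalized transfer evaluation, and the centralizer lemma for a permutation of odd
prime order `p` with one fixed point on `2 p + 1` points.
-/

namespace Cfsg.Agent.Lib.Helper62.SylowNumber

open Subgroup MulAction
open scoped Pointwise
open Cfsg.Agent.S4304 (mem_smul_sylow sylow_card_eq sylow_eq_of_le comm_apply pow_apply_of_comm)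

section General
variable {G : Type*} [Group G] [Finite G] {p : ℕ} [hp : Fact p.Prime]

/-- the orbit of `Q` under `P` has `p` elements and `[P : P ∩ Q] = p` -/
theorem relIndex_eq_prime (hn : Nat.card (Sylow p G) < p ^ 2) (P Q : Sylow p G) (hPQ : P ≠ Q) :
    (Q : Subgroup G).relIndex P = p ∧ (orbit (P : Subgroup G) Q).ncard = p := by
  have hstab : stabilizer (P : Subgroup G) Q = (Q : Subgroup G).subgroupOf P := by
    ext u
    rw [mem_stabilizer_iff, Subgroup.mem_subgroupOf, Subgroup.smul_def,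
      Sylow.smul_eq_iff_mem_normalizer]
    constructor
    · intro h
      have h1 : (u : G) ∈ (P : Subgroup G) ⊓ normalizer (Q : Set G) := ⟨u.2, h⟩
      rw [P.isPGroup'.inf_normalizer_sylow Q] at h1
      exact h1.2
    · intro h
      exact Subgroup.le_normalizer h
  have hidx := MulAction.index_stabilizer (P : Subgroup G) Q
  rw [hstab] at hidx
  change (Q : Subgroup G).relIndex P = _ at hidx
  obtain ⟨n, hn7⟩ := P.isPGroup'.card_orbit Q
  rw [Nat.card_coe_set_eq] at hn7
  have hle : (orbit (P : Subgroup G) Q).ncard ≤ Nat.card (Sylow p G) := by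
    rw [← Set.ncard_univ]
    exact Set.ncard_le_ncard (Set.subset_univ _)
  have hne1 : (Q : Subgroup G).relIndex P ≠ 1 := by
    intro h
    rw [Subgroup.relIndex_eq_one] at h
    exact hPQ (sylow_eq_of_le h)
  rw [hidx, hn7] at hne1
  rw [hn7] at hle
  have hlt : p ^ n < p ^ 2 := lt_of_le_of_lt hle hn
  have hn2 : n < 2 := (Nat.pow_lt_pow_iff_right hp.out.one_lt).mp hlt
  have hn1 : n = 1 := by
    rcases n with _ | _ | n
    · simp at hne1
    · rfl
    · omega
  subst hn1
  rw [hidx, hn7]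
  simp

theorem card_inf_mul_prime (hn : Nat.card (Sylow p G) < p ^ 2) (P Q : Sylow p G) (hPQ : P ≠ Q) :
    Nat.card ((P : Subgroup G) ⊓ Q : Subgroup G) * p = Nat.card P := by
  have h1 := (relIndex_eq_prime hn P Q hPQ).1
  have h2 := Subgroup.relIndex_mul_relIndex ⊥ ((P : Subgroup G) ⊓ Q) (P : Subgroup G) bot_le
    inf_le_left
  rw [Subgroup.relIndex_bot_left, Subgroup.relIndex_bot_left, Subgroup.inf_relIndex_left, h1] at h2
  exact h2

/-- `S ∩ T` is normal in `S` -/
theorem inf_normal (hn : Nat.card (Sylow p G) < p ^ 2) (S T : Sylow p G) (hST : S ≠ T) :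
    (((S : Subgroup G) ⊓ T).subgroupOf S).Normal := by
  obtain ⟨h7, -⟩ := relIndex_eq_prime hn S T hST
  have hcardS := card_inf_mul_prime hn S T hST
  apply Subgroup.normal_of_index_eq_minFac_card
  change ((S : Subgroup G) ⊓ T).relIndex S = _
  rw [Subgroup.inf_relIndex_left, h7]
  obtain ⟨k, hk⟩ := S.isPGroup'.exists_card_eq
  have hk0 : k ≠ 0 := by
    rintro rfl
    rw [pow_zero] at hk
    rw [hk] at hcardS
    have := Nat.eq_one_of_mul_eq_one_left hcardS
    exact hp.out.one_lt.ne' this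
  rw [hk, Nat.Prime.pow_minFac hp.out hk0]

/-- for `u ∈ S` the conjugate `u • T` still contains `S ∩ T` -/
theorem inf_le_smul (hn : Nat.card (Sylow p G) < p ^ 2) (S T : Sylow p G) (hST : S ≠ T)
    (u : G) (hu : u ∈ (S : Subgroup G)) : (S : Subgroup G) ⊓ T ≤ (u • T : Sylow p G) := by
  have hnorm := inf_normal hn S T hST
  intro d hd
  change d ∈ ((u • T : Sylow p G))
  rw [mem_smul_sylow]
  have hdS : d ∈ (S : Subgroup G) := hd.1
  have := hnorm.conj_mem ⟨d, hdS⟩ (by rw [Subgroup.mem_subgroupOf]; exact hd) ⟨u, hu⟩⁻¹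
  rw [Subgroup.mem_subgroupOf] at this
  have h2 := this.2
  simpa using h2

/-- the block through two distinct Sylow subgroups has at least `p + 1` points -/
theorem block_ge (hn : Nat.card (Sylow p G) < p ^ 2) (S T : Sylow p G) (hST : S ≠ T) :
    p + 1 ≤ {U : Sylow p G | (S : Subgroup G) ⊓ T ≤ U}.ncard := by
  obtain ⟨h7, horb⟩ := relIndex_eq_prime hn S T hST
  have hsub : insert S (orbit (S : Subgroup G) T) ⊆
      {U : Sylow p G | (S : Subgroup G) ⊓ T ≤ U} := by
    intro U hU
    rcases hU with rfl | ⟨u, rfl⟩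
    · exact (inf_le_left : (U : Subgroup G) ⊓ T ≤ U)
    · exact inf_le_smul hn S T hST u u.2
  have hnot : S ∉ orbit (S : Subgroup G) T := by
    rintro ⟨u, hu⟩
    apply hST
    have : (u : G) • T = S := by rw [← Subgroup.smul_def]; exact hu
    have h2 : T = (u : G)⁻¹ • S := eq_inv_smul_iff.mpr this
    rw [h2]
    symm
    rw [Sylow.smul_eq_iff_mem_normalizer]
    exact Subgroup.le_normalizer (inv_mem u.2)
  calc p + 1 = (insert S (orbit (S : Subgroup G) T)).ncard := by
        rw [Set.ncard_insert_of_notMem hnot, horb]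
    _ ≤ _ := Set.ncard_le_ncard hsub

theorem block_inter (hn : Nat.card (Sylow p G) < p ^ 2) (S T U V : Sylow p G) (hST : S ≠ T)
    (hUV : U ≠ V) (hU : (S : Subgroup G) ⊓ T ≤ U) (hV : (S : Subgroup G) ⊓ T ≤ V) :
    (U : Subgroup G) ⊓ V = (S : Subgroup G) ⊓ T := by
  symm
  apply Subgroup.eq_of_le_of_card_ge (le_inf hU hV)
  have h1 := card_inf_mul_prime hn S T hST
  have h2 := card_inf_mul_prime hn U V hUV
  have h3 : Nat.card (S : Subgroup G) = Nat.card (U : Subgroup G) := sylow_card_eq S U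
  have hpos : 0 < p := hp.out.pos
  have : Nat.card ((U : Subgroup G) ⊓ V : Subgroup G) * p =
      Nat.card ((S : Subgroup G) ⊓ T : Subgroup G) * p := by rw [h1, h2, h3]
  exact (Nat.eq_of_mul_eq_mul_right hpos this).le

/-- **Fewer than `p ^ 2` Sylow subgroups**: the intersection of two distinct Sylow
`p`-subgroups lies in every Sylow `p`-subgroup. -/
theorem inter_le_all (hn : Nat.card (Sylow p G) < p ^ 2) (P Q R : Sylow p G) (hPQ : P ≠ Q) :
    (P : Subgroup G) ⊓ Q ≤ R := by
  classical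
  by_contra hR
  have hRQ : Q ≠ R := by rintro rfl; exact hR inf_le_right
  have hpos : 0 < p := hp.out.pos
  -- the line through `Q` and `R` does not contain `P`
  have hPL : ¬ (Q : Subgroup G) ⊓ R ≤ P := by
    intro h
    have hle : (Q : Subgroup G) ⊓ R ≤ (P : Subgroup G) ⊓ Q := le_inf h inf_le_left
    have h1 := card_inf_mul_prime hn P Q hPQ
    have h2 := card_inf_mul_prime hn Q R hRQ
    have h3 : Nat.card (P : Subgroup G) = Nat.card (Q : Subgroup G) := sylow_card_eq P Q
    have h4 : Nat.card ((Q : Subgroup G) ⊓ R : Subgroup G) * p =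
        Nat.card ((P : Subgroup G) ⊓ Q : Subgroup G) * p := by rw [h1, h2, h3]
    have e4 : (Q : Subgroup G) ⊓ R = (P : Subgroup G) ⊓ Q :=
      Subgroup.eq_of_le_of_card_ge hle (Nat.eq_of_mul_eq_mul_right hpos h4).ge
    apply hR
    rw [← e4]
    exact inf_le_right
  let _ : Fintype (Sylow p G) := Fintype.ofFinite _
  set L : Set (Sylow p G) := {U : Sylow p G | (Q : Subgroup G) ⊓ R ≤ U} with hL
  have cL : p + 1 ≤ L.ncard := block_ge hn Q R hRQ
  have hneP : ∀ U ∈ L, P ≠ U := by
    rintro U hU rfl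
    exact hPL hU
  -- the `P`-orbits of the points of `L` are pairwise disjoint
  have hdisj : ∀ U ∈ L, ∀ U' ∈ L, U ≠ U' →
      Disjoint (orbit (P : Subgroup G) U) (orbit (P : Subgroup G) U') := by
    intro U hU U' hU' hne
    rw [Set.disjoint_left]
    rintro V ⟨a, rfl⟩ ⟨b, hb⟩
    -- U' = (b⁻¹ a) • U
    have hb' : (b : G) • U' = (a : G) • U := by
      have : b • U' = a • U := hb
      rwa [Subgroup.smul_def, Subgroup.smul_def] at this
    have hU'eq : U' = ((b : G)⁻¹ * (a : G)) • U := by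
      rw [mul_smul, ← hb', inv_smul_smul]
    have hc : (b : G)⁻¹ * (a : G) ∈ (P : Subgroup G) := mul_mem (inv_mem b.2) a.2
    have hle1 : (P : Subgroup G) ⊓ U ≤ U' := by
      rw [hU'eq]
      exact inf_le_smul hn P U (hneP U hU) _ hc
    have hle2 : (P : Subgroup G) ⊓ U ≤ (U : Subgroup G) ⊓ U' := le_inf inf_le_right hle1
    have e1 := block_inter hn Q R U U' hRQ hne hU hU'
    rw [e1] at hle2
    have h1 := card_inf_mul_prime hn P U (hneP U hU)
    have h2 := card_inf_mul_prime hn Q R hRQ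
    have h3 : Nat.card (P : Subgroup G) = Nat.card (Q : Subgroup G) := sylow_card_eq P Q
    have h4 : Nat.card ((Q : Subgroup G) ⊓ R : Subgroup G) * p =
        Nat.card ((P : Subgroup G) ⊓ U : Subgroup G) * p := by rw [h1, h2, h3]
    have e4 : (P : Subgroup G) ⊓ U = (Q : Subgroup G) ⊓ R :=
      Subgroup.eq_of_le_of_card_ge hle2 (Nat.eq_of_mul_eq_mul_right hpos h4).le
    apply hPL
    rw [← e4]
    exact inf_le_left
  -- count
  have hcount : (L.toFinset.biUnion fun U => (orbit (P : Subgroup G) U).toFinset).card =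
      L.toFinset.card * p := by
    rw [Finset.card_biUnion]
    · rw [Finset.sum_const_nat]
      intro U hU
      rw [Set.mem_toFinset] at hU
      rw [← Set.ncard_eq_toFinset_card']
      exact (relIndex_eq_prime hn P U (hneP U hU)).2
    · intro U hU U' hU' hne
      rw [Finset.mem_coe, Set.mem_toFinset] at hU hU'
      rw [Function.onFun, Set.disjoint_toFinset]
      exact hdisj U hU U' hU' hne
  have hle : (L.toFinset.biUnion fun U => (orbit (P : Subgroup G) U).toFinset).card ≤
      Nat.card (Sylow p G) := by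
    rw [Nat.card_eq_fintype_card]
    exact Finset.card_le_univ _
  rw [hcount, ← Set.ncard_eq_toFinset_card'] at hle
  have h5 : (p + 1) * p ≤ L.ncard * p := Nat.mul_le_mul_right p cL
  have h6 : p ^ 2 < (p + 1) * p := by nlinarith
  omega

end General

section Perm
variable {Ω : Type*} [Fintype Ω] [DecidableEq Ω]

omit [Fintype Ω] [DecidableEq Ω] in
theorem pow_mod_prime (x : Equiv.Perm Ω) {p : ℕ} (hxp : x ^ p = 1) (n : ℕ) :
    x ^ n = x ^ (n % p) := by
  conv_lhs => rw [← Nat.div_add_mod n p, pow_add, pow_mul, hxp, one_pow, one_mul]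

omit [Fintype Ω] [DecidableEq Ω] in
/-- a permutation of prime order `p` whose only fixed point is `α`: `x ^ d` fixes another
point only when `p ∣ d` -/
theorem dvd_of_fix (x : Equiv.Perm Ω) (α : Ω) {p : ℕ} (hp : p.Prime) (hxp : x ^ p = 1)
    (hfix : ∀ ω, x ω = ω ↔ ω = α) (ω : Ω) (hω : ω ≠ α) (d : ℕ) (hd : (x ^ d) ω = ω) : p ∣ d := by
  by_contra h7
  have hr : 0 < d % p := Nat.pos_of_ne_zero (fun h => h7 (Nat.dvd_of_mod_eq_zero h))
  have hr7 : d % p < p := Nat.mod_lt _ hp.pos
  have hcop : Nat.Coprime (d % p) p := (Nat.coprime_of_lt_prime hr.ne' hr7 hp).symm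
  obtain ⟨m, -, hm⟩ := Nat.exists_mul_mod_eq_one_of_coprime hcop hp.one_lt
  have h1 : (x ^ (d % p)) ω = ω := by rw [← pow_mod_prime x hxp]; exact hd
  have h2 : ((x ^ (d % p)) ^ m) ω = ω := Equiv.Perm.pow_apply_eq_self_of_apply_eq_self h1 m
  rw [← pow_mul, pow_mod_prime x hxp, hm, pow_one] at h2
  exact hω ((hfix ω).mp h2)

/-- two orbits cover the `2 p` moved points -/
theorem exists_cover {p : ℕ} (hp : p.Prime) (hΩ : Fintype.card Ω = 2 * p + 1) (x : Equiv.Perm Ω)
    (α : Ω) (hxp : x ^ p = 1) (hfix : ∀ ω, x ω = ω ↔ ω = α) :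
    ∃ a b : Ω, a ≠ α ∧ b ≠ α ∧ (∀ i, (x ^ i) a ≠ b) ∧ (∀ i, (x ^ i) b ≠ a) ∧
      ∀ ω, ω = α ∨ (∃ i, ω = (x ^ i) a) ∨ (∃ i, ω = (x ^ i) b) := by
  have hp2 := hp.two_le
  obtain ⟨q, rfl⟩ : ∃ q, p = q + 1 := ⟨p - 1, by omega⟩
  have hxα : ∀ i, (x ^ i) α = α := fun i =>
    Equiv.Perm.pow_apply_eq_self_of_apply_eq_self ((hfix α).mpr rfl) i
  let O : Ω → Finset Ω := fun ω => (Finset.range (q + 1)).image (fun i => (x ^ i) ω)
  have hinj : ∀ ω, ω ≠ α → ∀ i j, i < q + 1 → j < q + 1 → i ≤ j → (x ^ i) ω = (x ^ j) ω →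
      i = j := by
    intro ω hω i j hi hj hij h
    have h1 : (x ^ j) ω = (x ^ i) ((x ^ (j - i)) ω) := by
      rw [← Equiv.Perm.mul_apply, ← pow_add, Nat.add_sub_cancel' hij]
    rw [h1] at h
    have h2 := (x ^ i).injective h
    have h3 := dvd_of_fix x α hp hxp hfix ω hω (j - i) h2.symm
    have h4 := Nat.eq_zero_of_dvd_of_lt h3 (by omega)
    omega
  have hOcard : ∀ ω, ω ≠ α → (O ω).card = q + 1 := by
    intro ω hω
    rw [Finset.card_image_of_injOn, Finset.card_range]
    intro i hi j hj hij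
    simp only [Finset.coe_range, Set.mem_Iio] at hi hj
    rcases le_total i j with h | h
    · exact hinj ω hω i j hi hj h hij
    · exact (hinj ω hω j i hj hi h hij.symm).symm
  have hOmem : ∀ ω i, (x ^ i) ω ∈ O ω := by
    intro ω i
    rw [pow_mod_prime x hxp i]
    exact Finset.mem_image.mpr ⟨i % (q + 1), Finset.mem_range.mpr (Nat.mod_lt _ (by omega)), rfl⟩
  have hαO : ∀ ω, ω ≠ α → α ∉ O ω := by
    intro ω hω h
    obtain ⟨i, -, hi⟩ := Finset.mem_image.mp h
    exact hω ((x ^ i).injective (hi.trans (hxα i).symm))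
  have hex : ∃ a, a ≠ α := by
    by_contra h
    push Not at h
    have : Fintype.card Ω ≤ 1 := Fintype.card_le_one_iff.mpr (fun u v => (h u).trans (h v).symm)
    omega
  obtain ⟨a, ha⟩ := hex
  have hex2 : ∃ b, b ∉ insert α (O a) := by
    by_contra h
    push Not at h
    have h1 : insert α (O a) = Finset.univ := Finset.eq_univ_iff_forall.mpr h
    have hc := congrArg Finset.card h1
    rw [Finset.card_insert_of_notMem (hαO a ha), hOcard a ha, Finset.card_univ, hΩ] at hc
    omega
  obtain ⟨b, hb'⟩ := hex2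
  have hb : b ≠ α := fun h => hb' (h ▸ Finset.mem_insert_self _ _)
  have hbO : b ∉ O a := fun h => hb' (Finset.mem_insert_of_mem h)
  have hab : ∀ i, (x ^ i) a ≠ b := fun i h => hbO (h ▸ hOmem a i)
  have hba : ∀ i, (x ^ i) b ≠ a := by
    intro i h
    apply hab (q * i)
    rw [← h, ← Equiv.Perm.mul_apply, ← pow_add, show q * i + i = (q + 1) * i by ring, pow_mul,
      hxp, one_pow]
    rfl
  have hdisj : Disjoint (O a) (O b) := by
    rw [Finset.disjoint_left]
    intro ω h1 h2
    obtain ⟨i, -, rfl⟩ := Finset.mem_image.mp h1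
    obtain ⟨j, -, hj⟩ := Finset.mem_image.mp h2
    apply hab (q * j + i)
    rw [pow_add, Equiv.Perm.mul_apply, ← hj, ← Equiv.Perm.mul_apply, ← pow_add,
      show q * j + j = (q + 1) * j by ring, pow_mul, hxp, one_pow]
    rfl
  have hcard : (insert α (O a ∪ O b)).card = 2 * (q + 1) + 1 := by
    rw [Finset.card_insert_of_notMem, Finset.card_union_of_disjoint hdisj, hOcard a ha,
      hOcard b hb]
    · ring
    · simp only [Finset.mem_union, not_or]
      exact ⟨hαO a ha, hαO b hb⟩
  have huniv : insert α (O a ∪ O b) = Finset.univ := by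
    apply Finset.eq_univ_of_card; rw [hcard, hΩ]
  refine ⟨a, b, ha, hb, hab, hba, fun ω => ?_⟩
  have hω : ω ∈ insert α (O a ∪ O b) := huniv ▸ Finset.mem_univ ω
  rcases Finset.mem_insert.mp hω with h | h
  · exact Or.inl h
  · rcases Finset.mem_union.mp h with h | h
    · obtain ⟨i, -, hi⟩ := Finset.mem_image.mp h
      exact Or.inr (Or.inl ⟨i, hi.symm⟩)
    · obtain ⟨i, -, hi⟩ := Finset.mem_image.mp h
      exact Or.inr (Or.inr ⟨i, hi.symm⟩)

omit [Fintype Ω] [DecidableEq Ω] in
theorem pow_two_mul_fix {p : ℕ} (hp : p.Prime) {x u : Equiv.Perm Ω} {α a b : Ω} (hxp : x ^ p = 1)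
    (hfix : ∀ ω, x ω = ω ↔ ω = α)
    (hc : Commute u x) (ha : a ≠ α) (hba : ∀ i, (x ^ i) b ≠ a)
    (hcov : ∀ ω, ω = α ∨ (∃ i, ω = (x ^ i) a) ∨ (∃ i, ω = (x ^ i) b)) :
    (u ^ (2 * p)) a = a := by
  have hp2 := hp.two_le
  obtain ⟨q, rfl⟩ : ∃ q, p = q + 1 := ⟨p - 1, by omega⟩
  have hxα : ∀ i, (x ^ i) α = α := fun i =>
    Equiv.Perm.pow_apply_eq_self_of_apply_eq_self ((hfix α).mpr rfl) i
  have huα : u α = α := by
    rw [← hfix, ← comm_apply hc, (hfix α).mpr rfl]
  have h7 : ∀ (v : Equiv.Perm Ω), Commute v x → ∀ i, v a = (x ^ i) a → (v ^ (q + 1)) a = a := by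
    intro v hv i hi
    rw [pow_apply_of_comm hv a i hi (q + 1), pow_mul', hxp, one_pow]; rfl
  rcases hcov (u a) with h | ⟨i, hi⟩ | ⟨i, hi⟩
  · exact absurd (u.injective (h.trans huα.symm)) ha
  · have := h7 u hc i hi
    rw [two_mul, pow_add, Equiv.Perm.mul_apply, this, this]
  · rcases hcov (u b) with h | ⟨k, hk⟩ | ⟨k, hk⟩
    · exfalso
      have hbα : b = α := u.injective (h.trans huα.symm)
      rw [hbα, hxα i] at hi
      exact ha (u.injective (hi.trans huα.symm))
    · have h2 : (u ^ 2) a = (x ^ (i + k)) a := by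
        rw [pow_two, Equiv.Perm.mul_apply, hi, comm_apply (hc.pow_right i), hk,
          ← Equiv.Perm.mul_apply, ← pow_add]
      have := h7 (u ^ 2) (hc.pow_left 2) (i + k) h2
      rw [← pow_mul] at this
      exact this
    · exfalso
      apply hba (i + q * k)
      apply u.injective
      rw [comm_apply (hc.pow_right (i + q * k)), hk, hi, ← Equiv.Perm.mul_apply, ← pow_add,
        show i + q * k + k = i + (q + 1) * k by ring, pow_add, pow_mul, hxp, one_pow, mul_one]

omit [Fintype Ω] [DecidableEq Ω] in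
theorem eq_one_of_fix {p : ℕ} (hp : p.Prime) (hp2 : p ≠ 2) {x t : Equiv.Perm Ω} {α a b : Ω}
    (hxp : x ^ p = 1) (hfix : ∀ ω, x ω = ω ↔ ω = α)
    (hc : Commute t x) (ht2 : t ^ 2 = 1) (hb : b ≠ α) (hab : ∀ i, (x ^ i) a ≠ b)
    (hcov : ∀ ω, ω = α ∨ (∃ i, ω = (x ^ i) a) ∨ (∃ i, ω = (x ^ i) b)) (hta : t a = a) :
    t = 1 := by
  have htα : t α = α := by
    rw [← hfix, ← comm_apply hc, (hfix α).mpr rfl]
  have htb : t b = b := by
    rcases hcov (t b) with h | ⟨k, hk⟩ | ⟨j, hj⟩
    · exact absurd (t.injective (h.trans htα.symm)) hb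
    · exfalso
      have : t b = t ((x ^ k) a) := by rw [comm_apply (hc.pow_right k), hta, hk]
      exact hab k (t.injective this).symm
    · have h2 := pow_apply_of_comm hc b j hj 2
      rw [ht2, Equiv.Perm.one_apply] at h2
      have hd := dvd_of_fix x α hp hxp hfix b hb (j * 2) h2.symm
      have hcop : Nat.Coprime p 2 := by
        rw [Nat.Prime.coprime_iff_not_dvd hp]
        intro h
        exact hp2 ((Nat.prime_dvd_prime_iff_eq hp Nat.prime_two).mp h)
      have hj7 : p ∣ j := Nat.Coprime.dvd_of_dvd_mul_right hcop hd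
      obtain ⟨q, rfl⟩ := hj7
      rw [hj, pow_mul, hxp, one_pow]; rfl
  ext ω
  rcases hcov ω with rfl | ⟨i, rfl⟩ | ⟨i, rfl⟩
  · simpa using htα
  · rw [comm_apply (hc.pow_right i), hta]; rfl
  · rw [comm_apply (hc.pow_right i), htb]; rfl

/-- **Centralizer lemma**: `x` of odd prime order `p` with exactly one fixed point on `2 p + 1`
points; any `z` commuting with `x` has `z ^ (2 p) = 1`, and `z ^ p` is an odd permutation
unless it is trivial. -/
theorem perm_key {p : ℕ} (hp : p.Prime) (hp2 : p ≠ 2) (hΩ : Fintype.card Ω = 2 * p + 1)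
    (x z : Equiv.Perm Ω) (α : Ω) (hxp : x ^ p = 1)
    (hfix : ∀ ω, x ω = ω ↔ ω = α) (hzx : Commute z x) :
    z ^ (2 * p) = 1 ∧ (z ^ p ≠ 1 → Equiv.Perm.sign (z ^ p) = -1) := by
  obtain ⟨a, b, ha, hb, hab, hba, hcov⟩ := exists_cover hp hΩ x α hxp hfix
  have hcov' : ∀ ω, ω = α ∨ (∃ i, ω = (x ^ i) b) ∨ (∃ i, ω = (x ^ i) a) :=
    fun ω => (hcov ω).imp_right Or.symm
  have hzα : z α = α := by
    rw [← hfix, ← comm_apply hzx, (hfix α).mpr rfl]
  have h14 : z ^ (2 * p) = 1 := by
    ext ω
    have hc14 : Commute (z ^ (2 * p)) x := hzx.pow_left (2 * p)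
    rcases hcov ω with rfl | ⟨i, rfl⟩ | ⟨i, rfl⟩
    · simpa using Equiv.Perm.pow_apply_eq_self_of_apply_eq_self hzα (2 * p)
    · rw [comm_apply (hc14.pow_right i), pow_two_mul_fix hp hxp hfix hzx ha hba hcov]; rfl
    · rw [comm_apply (hc14.pow_right i), pow_two_mul_fix hp hxp hfix hzx hb hab hcov']; rfl
  refine ⟨h14, fun ht => ?_⟩
  set t := z ^ p with ht_def
  have ht2 : t ^ 2 = 1 := by rw [ht_def, ← pow_mul, mul_comm]; exact h14
  have hct : Commute t x := hzx.pow_left p
  have hmove : ∀ ω, ω ≠ α → t ω ≠ ω := by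
    intro ω hω hfixω
    rcases hcov ω with rfl | ⟨i, rfl⟩ | ⟨i, rfl⟩
    · exact hω rfl
    · apply ht
      apply eq_one_of_fix hp hp2 hxp hfix hct ht2 hb hab hcov
      rw [comm_apply (hct.pow_right i)] at hfixω
      exact (x ^ i).injective hfixω
    · apply ht
      apply eq_one_of_fix hp hp2 hxp hfix hct ht2 ha hba hcov'
      rw [comm_apply (hct.pow_right i)] at hfixω
      exact (x ^ i).injective hfixω
  have htα : t α = α := Equiv.Perm.pow_apply_eq_self_of_apply_eq_self hzα p
  have hsupp : t.support = Finset.univ.erase α := by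
    ext ω
    simp only [Equiv.Perm.mem_support, Finset.mem_erase, Finset.mem_univ, and_true]
    constructor
    · intro h1 h2; exact h1 (h2 ▸ htα)
    · exact hmove ω
  have hcs : t.support.card = 2 * p := by
    rw [hsupp, Finset.card_erase_of_mem (Finset.mem_univ _), Finset.card_univ, hΩ]
    omega
  have hord : orderOf t = 2 := orderOf_eq_prime ht2 ht
  obtain ⟨n, hn⟩ := Equiv.Perm.cycleType_prime_order (σ := t) (by rw [hord]; norm_num)
  rw [hord] at hn
  have hsum := Equiv.Perm.sum_cycleType t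
  rw [hn, hcs] at hsum
  simp at hsum
  have hn6 : n + 1 = p := by omega
  rw [Equiv.Perm.sign_of_cycleType, hn, hn6]
  have hodd : Odd p := hp.odd_of_ne_two hp2
  have h21 : (-1 : ℤˣ) ^ (p * 2 + p) = -1 := by
    apply Odd.neg_one_pow
    obtain ⟨m, hm⟩ := hodd
    exact ⟨3 * m + 1, by omega⟩
  simpa using h21

end Perm

section Transfer

/-- a variant of `MonoidHom.transfer_eq_pow` for a homomorphism that is constant on the
conjugates of the powers of `g` lying in `H` -/
theorem transfer_eq_pow_of_map {G : Type*} [Group G] {H : Subgroup G} [H.FiniteIndex]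
    {A : Type*} [CommGroup A] (ϕ : H →* A) (g : G) (hg : g ∈ H)
    (key : ∀ (k : ℕ) (g₀ : G) (h : g₀⁻¹ * g ^ k * g₀ ∈ H),
      ϕ ⟨g₀⁻¹ * g ^ k * g₀, h⟩ = ϕ ⟨g, hg⟩ ^ k) :
    MonoidHom.transfer ϕ g = ϕ ⟨g, hg⟩ ^ H.index := by
  classical
  have : Fintype (Quotient (MulAction.orbitRel (zpowers g) (G ⧸ H))) := Fintype.ofFinite _
  rw [MonoidHom.transfer_eq_prod_quotient_orbitRel_zpowers_quot,
    Subgroup.index_eq_sum_minimalPeriod H g, ← Finset.prod_pow_eq_pow_sum]
  exact Finset.prod_congr rfl (fun q _ => key _ _ _)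

variable {G : Type*} [Group G] [Finite G] {p : ℕ} [hp : Fact p.Prime]

/-- Transfer into `Aut(P)` for a Sylow subgroup `P` of prime order contained in no proper
normal subgroup: if `ψ : N(P) → Aut(P)` takes the value `ψ(u) ^ k` on every conjugate of
`u ^ k` lying in `N(P)`, then `ψ(u) ^ [G : N(P)] = 1`. -/
theorem psi_pow_index_eq_one (P : Sylow p G) (hcard : Nat.card (P : Subgroup G) = p)
    (hM1 : ∀ (M : Subgroup G) [M.Normal], (P : Subgroup G) ≤ M → M = ⊤) (u : G)
    (hu : u ∈ normalizer ((P : Subgroup G) : Set G))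
    (key : ∀ (k : ℕ) (y : G) (h : y⁻¹ * u ^ k * y ∈ normalizer ((P : Subgroup G) : Set G)),
      (P : Subgroup G).normalizerMonoidHom ⟨y⁻¹ * u ^ k * y, h⟩ =
        (P : Subgroup G).normalizerMonoidHom ⟨u, hu⟩ ^ k) :
    (P : Subgroup G).normalizerMonoidHom ⟨u, hu⟩ ^
      (normalizer ((P : Subgroup G) : Set G)).index = 1 := by
  have hcyc : IsCyclic (P : Subgroup G) := isCyclic_of_prime_card hcard
  let _ : CommGroup (MulAut (P : Subgroup G)) :=
    (hcyc.mulAutMulEquiv _).toMonoidHom.commGroupOfInjective (hcyc.mulAutMulEquiv _).injective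
  have hAut : Nat.card (MulAut (P : Subgroup G)) = p - 1 := by
    rw [hcyc.card_mulAut, hcard, Nat.totient_prime hp.out]
  set V := MonoidHom.transfer (P : Subgroup G).normalizerMonoidHom with hV
  have hPle : (P : Subgroup G) ≤ V.ker := by
    intro g hg
    rw [MonoidHom.mem_ker]
    have h1 : V g ^ p = 1 := by
      rw [← map_pow]
      have : g ^ p = 1 := by
        have h0 := pow_card_eq_one' (G := (P : Subgroup G)) (x := ⟨g, hg⟩)
        rw [hcard] at h0
        simpa using congrArg Subtype.val h0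
      rw [this, map_one]
    have h2 : V g ^ (p - 1) = 1 := by rw [← hAut]; exact pow_card_eq_one'
    have hcop : Nat.Coprime p (p - 1) := by
      have h2le := hp.out.two_le
      exact Nat.coprime_of_lt_prime (by omega) (by omega) hp.out
    have := Nat.eq_one_of_dvd_coprimes hcop (orderOf_dvd_of_pow_eq_one h1)
      (orderOf_dvd_of_pow_eq_one h2)
    exact orderOf_eq_one_iff.mp this
  have htop := hM1 V.ker hPle
  have hVu : V u = 1 := by
    have : u ∈ V.ker := htop ▸ Subgroup.mem_top u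
    exact this
  rw [hV, transfer_eq_pow_of_map _ u hu key] at hVu
  exact hVu

/-- a cyclic group of prime order has at most one automorphism of order two -/
theorem mulAut_involution_unique (P : Subgroup G) (hcard : Nat.card P = p)
    (a b : MulAut P) (ha : a ^ 2 = 1) (hb : b ^ 2 = 1) (ha1 : a ≠ 1) (hb1 : b ≠ 1) : a = b := by
  classical
  have hcyc : IsCyclic P := isCyclic_of_prime_card hcard
  have : Fact (Nat.card P).Prime := ⟨hcard ▸ hp.out⟩
  have hcycA : IsCyclic (MulAut P) :=
    isCyclic_of_surjective (hcyc.mulAutMulEquiv P).symm (hcyc.mulAutMulEquiv P).symm.surjective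
  have : Finite (MulAut P) := Nat.finite_of_card_ne_zero (by
    rw [hcyc.card_mulAut, hcard, Nat.totient_prime hp.out]
    have := hp.out.two_le
    omega)
  let _ : Fintype (MulAut P) := Fintype.ofFinite _
  have hle := IsCyclic.card_pow_eq_one_le (α := MulAut P) (n := 2) (by norm_num)
  by_contra hab
  have hsub : ({1, a, b} : Finset (MulAut P)) ⊆ Finset.univ.filter (fun c : MulAut P => c ^ 2 = 1) := by
    intro c hc
    simp only [Finset.mem_insert, Finset.mem_singleton] at hc
    simp only [Finset.mem_filter, Finset.mem_univ, true_and]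
    rcases hc with rfl | rfl | rfl
    · simp
    · exact ha
    · exact hb
  have hcard3 : ({1, a, b} : Finset (MulAut P)).card = 3 := by
    rw [Finset.card_insert_of_notMem, Finset.card_insert_of_notMem, Finset.card_singleton]
    · simpa using hab
    · simp only [Finset.mem_insert, Finset.mem_singleton, not_or]
      exact ⟨fun h => ha1 h.symm, fun h => hb1 h.symm⟩
  have := Finset.card_le_card hsub
  omega

end Transfer

section Minimal
open Cfsg.Agent.S4304 (card_sylow_quotient card_sylow_of_normal)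

universe u

variable {G : Type u} [Group G] [Finite G] {p : ℕ} [hp : Fact p.Prime] {n : ℕ}

/-- **Minimal counterexample package** for "`n` is not a Sylow `p`-number" with `1 < n < p ^ 2`:
no proper normal subgroup contains a Sylow `p`-subgroup, the action on the Sylow
`p`-subgroups is faithful, and the Sylow `p`-subgroups have order `p` and meet trivially. -/
theorem min_package (hn : Nat.card (Sylow p G) = n) (hn1 : 1 < n) (hn2 : n < p ^ 2)
    (hmin : ∀ (H : Type u) [Group H] [Finite H], Nat.card H < Nat.card G →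
      Nat.card (Sylow p H) ≠ n) :
    (∀ (P : Sylow p G) (M : Subgroup G) [M.Normal], (P : Subgroup G) ≤ M → M = ⊤) ∧
    Function.Injective (MulAction.toPermHom G (Sylow p G)) ∧
    (∀ P Q : Sylow p G, P ≠ Q → (P : Subgroup G) ⊓ Q = ⊥) ∧
    (∀ P : Sylow p G, Nat.card (P : Subgroup G) = p) := by
  have hlt : Nat.card (Sylow p G) < p ^ 2 := hn ▸ hn2
  have hM1 : ∀ (P : Sylow p G) (M : Subgroup G) [M.Normal], (P : Subgroup G) ≤ M → M = ⊤ := by
    intro P M _ hPM
    by_contra hM
    have h1 := card_sylow_of_normal M P hPM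
    rw [hn] at h1
    refine hmin M ?_ h1
    have hle : Nat.card M ≤ Nat.card G := Subgroup.card_le_card_group M
    have hne : Nat.card M ≠ Nat.card G := fun h => hM ((Subgroup.card_eq_iff_eq_top M).mp h)
    omega
  set φ : G →* Equiv.Perm (Sylow p G) := MulAction.toPermHom G (Sylow p G) with hφ
  have hφapp : ∀ (g : G) (S : Sylow p G), φ g S = g • S := fun g S => rfl
  have hker_norm : ∀ S : Sylow p G, φ.ker ≤ normalizer (S : Set G) := by
    intro S g hg
    rw [MonoidHom.mem_ker] at hg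
    rw [← Sylow.smul_eq_iff_mem_normalizer, ← hφapp, hg]; rfl
  have hker : φ.ker = ⊥ := by
    by_contra hk
    have h1 := card_sylow_quotient φ.ker hker_norm
    rw [hn] at h1
    refine hmin (G ⧸ φ.ker) ?_ h1
    have h2 := Subgroup.card_mul_index φ.ker
    have h3 : 1 < Nat.card φ.ker := (Subgroup.one_lt_card_iff_ne_bot _).mpr hk
    change φ.ker.index < _
    have hpos : 0 < φ.ker.index := Nat.pos_of_ne_zero Subgroup.index_ne_zero_of_finite
    nlinarith
  have hinj : Function.Injective φ := (MonoidHom.ker_eq_bot_iff φ).mp hker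
  have hTI : ∀ P Q : Sylow p G, P ≠ Q → (P : Subgroup G) ⊓ Q = ⊥ := by
    intro P Q hPQ
    rw [eq_bot_iff, ← hker]
    intro g hg
    rw [MonoidHom.mem_ker]
    ext S : 1
    rw [hφapp, Equiv.Perm.one_apply, Sylow.smul_eq_iff_mem_normalizer]
    exact Subgroup.le_normalizer (inter_le_all hlt P Q S hPQ hg)
  refine ⟨hM1, hinj, hTI, fun P => ?_⟩
  have hnontriv : ∃ Q : Sylow p G, Q ≠ P := by
    have : Nontrivial (Sylow p G) :=
      (Finite.one_lt_card_iff_nontrivial).mp (by rw [hn]; exact hn1)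
    exact exists_ne P
  obtain ⟨Q, hQP⟩ := hnontriv
  have h1 := card_inf_mul_prime hlt P Q (Ne.symm hQP)
  rw [hTI P Q (Ne.symm hQP), Subgroup.card_bot] at h1
  omega

/-- strong induction wrapper -/
theorem of_min_counter {p n : ℕ}
    (h : ∀ (G : Type u) [Group G] [Finite G], Nat.card (Sylow p G) = n →
      (∀ (H : Type u) [Group H] [Finite H], Nat.card H < Nat.card G →
        Nat.card (Sylow p H) ≠ n) → False)
    (G : Type u) [Group G] [Finite G] : Nat.card (Sylow p G) ≠ n := by
  have key : ∀ (m : ℕ) (G : Type u) [Group G] [Finite G], Nat.card G = m →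
      Nat.card (Sylow p G) ≠ n := by
    intro m
    induction m using Nat.strong_induction_on with
    | _ m ih =>
      intro G _ _ hcard hn
      exact h G hn (fun H _ _ hlt => ih (Nat.card H) (hcard ▸ hlt) H rfl)
  exact key _ G rfl

omit [Finite G] hp in
/-- In the situation of `min_package`: a generator `g₀` of a Sylow subgroup `P` fixes only `P`. -/
theorem smul_eq_iff_of_ti (hTI : ∀ P Q : Sylow p G, P ≠ Q → (P : Subgroup G) ⊓ Q = ⊥)
    (P : Sylow p G) (g₀ : G) (hg₀P : g₀ ∈ (P : Subgroup G)) (hg₀1 : g₀ ≠ 1) (S : Sylow p G) :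
    g₀ • S = S ↔ S = P := by
  constructor
  · intro h
    by_contra hSP
    rw [Sylow.smul_eq_iff_mem_normalizer] at h
    have h1 : g₀ ∈ (P : Subgroup G) ⊓ normalizer (S : Set G) := ⟨hg₀P, h⟩
    rw [P.isPGroup'.inf_normalizer_sylow S, hTI P S (Ne.symm hSP)] at h1
    exact hg₀1 (Subgroup.mem_bot.mp h1)
  · rintro rfl
    rw [Sylow.smul_eq_iff_mem_normalizer]
    exact Subgroup.le_normalizer hg₀P

end Minimal

end Cfsg.Agent.Lib.Helper62.SylowNumber
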